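import Cfsg.Agent.Lib.V4TI.Core
import Cfsg.Agent.S0111
import Cfsg.Agent.Lib.PGroups.MaximalClass
import Cfsg.Agent.S0494

/-!
# Reduction of "Klein four normal Sylow in `C(x)`, simple" to the character computation
-/

set_option autoImplicit false
set_option linter.style.haveILetI false
set_option linter.unusedVariables false
set_option linter.unusedSectionVars false
set_option linter.unnecessarySeqFocus false

namespace Cfsg.Agent.Lib.V4TI.Reduce

open Cfsg Subgroup
open scoped Pointwise
open Cfsg.Agent.Lib.PGroups.MaximalClass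

lemma cyclic_invol_unique {A : Type*} [Group A] [Finite A] [IsCyclic A] {a b : A} (ha : a * a = 1)
    (ha1 : a ≠ 1) (hb : b * b = 1) (hb1 : b ≠ 1) : a = b := by
  classical
  letI := Fintype.ofFinite A
  by_contra hab
  have h1 := IsCyclic.card_pow_eq_one_le (α := A) (n := 2) (by norm_num)
  have h2 : ({1, a, b} : Finset A) ⊆ Finset.univ.filter (fun y : A => y ^ 2 = 1) := by
    intro y hy
    simp only [Finset.mem_insert, Finset.mem_singleton] at hy
    simp only [Finset.mem_filter, Finset.mem_univ, true_and, sq]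
    rcases hy with rfl | rfl | rfl
    · simp
    · exact ha
    · exact hb
  have h3 := Finset.card_le_card h2
  have h4 : ({1, a, b} : Finset A).card = 3 := by
    rw [Finset.card_insert_of_notMem, Finset.card_insert_of_notMem, Finset.card_singleton]
    · simpa using hab
    · simp only [Finset.mem_insert, Finset.mem_singleton, not_or]
      exact ⟨ha1.symm, hb1.symm⟩
  omega

section Setup

variable {G : Type*} [Group G] [Finite G] {x : G} {S₀ : Subgroup G}

/-- `2`-elements of `C(x)` are in the normal Sylow subgroup `S₀`. -/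
lemma mem_of_two_pow (hle : S₀ ≤ centralizer ({x} : Set G))
    (hodd : ¬ 2 ∣ S₀.relIndex (centralizer ({x} : Set G)))
    (hn : (S₀.subgroupOf (centralizer ({x} : Set G))).Normal) {g : G} (hgc : g * x = x * g) {k : ℕ}
    (hk : g ^ 2 ^ k = 1) : g ∈ S₀ := by
  set C := centralizer ({x} : Set G) with hC
  have hgC : g ∈ C := mem_centralizer_singleton_iff.mpr hgc
  set N := S₀.subgroupOf C with hN
  let c : C := ⟨g, hgC⟩
  have h1 : orderOf (c : C ⧸ N) ∣ 2 ^ k := by
    apply orderOf_dvd_of_pow_eq_one
    rw [← QuotientGroup.mk_pow]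
    have : c ^ 2 ^ k = 1 := Subtype.ext hk
    rw [this]
    rfl
  have h2 : orderOf (c : C ⧸ N) ∣ S₀.relIndex C := by
    have := orderOf_dvd_natCard (c : C ⧸ N)
    exact this
  have hcop : Nat.Coprime (S₀.relIndex C) (2 ^ k) :=
    Nat.Coprime.pow_right k ((Nat.Prime.coprime_iff_not_dvd Nat.prime_two).mpr hodd).symm
  have h3 := Nat.Coprime.eq_one_of_dvd (hcop.coprime_dvd_left h2) h1
  have h4 : (c : C ⧸ N) = 1 := orderOf_eq_one_iff.mp h3
  have h5 : c ∈ N := (QuotientGroup.eq_one_iff c).mp h4
  exact h5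

/-- Elements of a `2`-subgroup have `2`-power order. -/
lemma two_pow_of_mem {P : Subgroup G} (hP : IsPGroup 2 P) {g : G} (hg : g ∈ P) :
    ∃ k : ℕ, g ^ 2 ^ k = 1 := by
  obtain ⟨k, hk⟩ := hP ⟨g, hg⟩
  exact ⟨k, congrArg Subtype.val hk⟩

/-- `S₀` is a Sylow `2`-subgroup of `G`. -/
lemma exists_sylow_eq (hx : orderOf x = 2) (hle : S₀ ≤ centralizer ({x} : Set G))
    (hK : IsKleinFour S₀) (hodd : ¬ 2 ∣ S₀.relIndex (centralizer ({x} : Set G)))
    (hn : (S₀.subgroupOf (centralizer ({x} : Set G))).Normal)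
    (hxS : x ∈ S₀)
    (hidx : ∀ M : Subgroup G, M.Normal → M.index ≠ 2) :
    ∃ P : Sylow 2 G, (P : Subgroup G) = S₀ := by
  haveI : Fact (Nat.Prime 2) := ⟨Nat.prime_two⟩
  have h2grp : IsPGroup 2 S₀ := IsPGroup.of_card (n := 2) (by rw [hK.card_four]; norm_num)
  obtain ⟨P, hP⟩ := h2grp.exists_le_sylow
  refine ⟨P, le_antisymm ?_ hP⟩
  by_contra hne
  have hPpg : IsPGroup 2 (P : Subgroup G) := P.isPGroup'
  obtain ⟨n, hn'⟩ := IsPGroup.iff_card.mp hPpg
  have hcomm : ∀ a ∈ S₀, ∀ b ∈ S₀, a * b = b * a := by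
    intro a ha b hb
    have := hK.isMulCommutative.is_comm.comm (⟨a, ha⟩ : S₀) ⟨b, hb⟩
    exact congrArg Subtype.val this
  set A : Subgroup (P : Subgroup G) := S₀.subgroupOf (P : Subgroup G) with hA
  have hAcard : Nat.card A = 2 ^ 2 := by
    rw [hA, Nat.card_congr (subgroupOfEquivOfLe hP).toEquiv, hK.card_four]
    norm_num
  have hcent : centralizer (A : Set (P : Subgroup G)) = A := by
    apply le_antisymm
    · intro g hg
      have h1 : g * ⟨x, hP hxS⟩ = ⟨x, hP hxS⟩ * g := by
        have := (mem_centralizer_iff.mp hg) ⟨x, hP hxS⟩ (by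
          show (⟨x, hP hxS⟩ : (P : Subgroup G)) ∈ A
          exact hxS)
        exact this.symm
      have h2 : (g : G) * x = x * g := congrArg Subtype.val h1
      obtain ⟨k, hk⟩ := two_pow_of_mem hPpg g.2
      exact mem_of_two_pow hle hodd hn h2 hk
    · intro g hg
      rw [mem_centralizer_iff]
      intro h hh
      apply Subtype.ext
      exact hcomm _ hh _ hg
  have hclass := class_of_self_centralizing n hn' A hAcard hcent
  have hlt : Nat.card S₀ < Nat.card (P : Subgroup G) := by
    exact lt_of_not_ge fun h => hne (Subgroup.eq_of_le_of_card_ge hP h).symm.le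
  have hn3 : 3 ≤ n := by
    rw [hK.card_four, hn'] at hlt
    by_contra h
    have h2 : n ≤ 2 := by omega
    have := Nat.pow_le_pow_right (by norm_num : 0 < 2) h2
    omega
  obtain ⟨C₀, hcyc, hidx2⟩ := exists_cyclic_index_two_of_class hn3 hn' hclass
  set Q := C₀.map (P : Subgroup G).subtype with hQ
  have hQP : Q ≤ (P : Subgroup G) := map_subtype_le _
  have hQsub : Q.subgroupOf (P : Subgroup G) = C₀ := by
    rw [hQ, subgroupOf, comap_map_eq_self_of_injective (subtype_injective _)]
  have hQi : Q.relIndex (P : Subgroup G) = 2 := by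
    rw [relIndex, hQsub, hidx2]
  have hC₀card : 4 ≤ Nat.card C₀ := by
    have h1 := Subgroup.card_mul_index C₀
    rw [hidx2, hn'] at h1
    have h2 : 2 ^ 3 ≤ 2 ^ n := Nat.pow_le_pow_right (by norm_num) hn3
    omega
  have hcycComm : ∀ a b : C₀, a * b = b * a := fun a b => by
    have := IsCyclic.isMulCommutative (α := C₀)
    exact this.is_comm.comm a b
  have hxQ : x ∉ Q := by
    rintro ⟨c, hc, hce⟩
    have hc' : (c : G) = x := hce
    have hle2 : C₀ ≤ A := by
      intro b hb
      have h1 : b * c = c * b := congrArg Subtype.val (hcycComm ⟨b, hb⟩ ⟨c, hc⟩)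
      have h2 : (b : G) * x = x * b := by
        have := congrArg Subtype.val h1
        rw [← hc']
        exact this
      obtain ⟨k, hk⟩ := two_pow_of_mem hPpg b.2
      exact mem_of_two_pow hle hodd hn h2 hk
    have heq : C₀ = A := Subgroup.eq_of_le_of_card_ge hle2 (by
      rw [hAcard]; omega)
    have hcycA : IsCyclic A := by rw [← heq]; exact hcyc
    have hcycS : IsCyclic S₀ :=
      isCyclic_of_surjective (subgroupOfEquivOfLe hP) (subgroupOfEquivOfLe hP).surjective
    exact IsKleinFour.not_isCyclic hcycS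
  rcases Cfsg.Agent.S0111.result P Q hQP hQi x hx (hP hxS) hxQ with ⟨M, hMn, hMi, -⟩ | ⟨g, hg⟩
  · exact hidx M hMn hMi
  · obtain ⟨c, hc, hce⟩ := hg
    have hce' : (c : G) = g * x * g⁻¹ := hce
    have hxx : x * x = 1 := by rw [← sq, ← hx, pow_orderOf_eq_one]
    have hx1 : x ≠ 1 := by
      rintro rfl
      simp at hx
    have hcc : c * c = 1 := by
      apply Subtype.ext
      show (c : G) * c = 1
      rw [hce']
      calc g * x * g⁻¹ * (g * x * g⁻¹) = g * (x * x) * g⁻¹ := by group
        _ = 1 := by rw [hxx]; group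
    have hc1 : c ≠ 1 := by
      rintro rfl
      have h1 : g * x * g⁻¹ = 1 := hce'.symm
      exact hx1 (conj_eq_one_iff.mp h1)
    haveI hC₀n : C₀.Normal := Subgroup.normal_of_index_eq_two hidx2
    have hcentral : ∀ t : (P : Subgroup G), t * c * t⁻¹ = c := by
      intro t
      have h1 : t * c * t⁻¹ ∈ C₀ := hC₀n.conj_mem c hc t
      have h2 : (⟨t * c * t⁻¹, h1⟩ : C₀) = ⟨c, hc⟩ := by
        apply cyclic_invol_unique
        · apply Subtype.ext
          show t * c * t⁻¹ * (t * c * t⁻¹) = 1
          calc t * c * t⁻¹ * (t * c * t⁻¹) = t * (c * c) * t⁻¹ := by group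
            _ = 1 := by rw [hcc]; group
        · intro h
          have h3 : t * c * t⁻¹ = 1 := congrArg Subtype.val h
          exact hc1 (conj_eq_one_iff.mp h3)
        · exact Subtype.ext hcc
        · intro h
          exact hc1 (congrArg Subtype.val h)
      exact congrArg Subtype.val h2
    -- `g⁻¹ P g ≤ S₀`
    have hinj : Nat.card (P : Subgroup G) ≤ Nat.card S₀ := by
      refine Nat.card_le_card_of_injective (fun t => (⟨g⁻¹ * t * g, ?_⟩ : S₀)) ?_
      · have h1 : (t : G) * (g * x * g⁻¹) = (g * x * g⁻¹) * t := by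
          have h2 := congrArg Subtype.val (hcentral t)
          have h3 : (t : G) * c * (t : G)⁻¹ = c := h2
          rw [hce'] at h3
          calc (t : G) * (g * x * g⁻¹) = (t * (g * x * g⁻¹) * (t : G)⁻¹) * t := by group
            _ = _ := by rw [h3]
        have h4 : (g⁻¹ * t * g) * x = x * (g⁻¹ * t * g) := by
          calc (g⁻¹ * t * g) * x = g⁻¹ * ((t : G) * (g * x * g⁻¹)) * g := by group
            _ = g⁻¹ * ((g * x * g⁻¹) * t) * g := by rw [h1]
            _ = _ := by group
        obtain ⟨k, hk⟩ := two_pow_of_mem hPpg t.2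
        refine mem_of_two_pow hle hodd hn h4 (k := k) ?_
        have h5 : (g⁻¹ * (t : G) * g) ^ 2 ^ k = g⁻¹ * (t : G) ^ 2 ^ k * g := by
          have := conj_pow (a := g⁻¹) (b := (t : G)) (i := 2 ^ k)
          simpa using this
        rw [h5, hk]
        group
      · intro a b hab
        have h1 : g⁻¹ * (a : G) * g = g⁻¹ * b * g := congrArg Subtype.val hab
        exact Subtype.ext (mul_left_cancel (mul_right_cancel h1))
    rw [hK.card_four, hn'] at hinj
    have h2 : 2 ^ 3 ≤ 2 ^ n := Nat.pow_le_pow_right (by norm_num) hn3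
    omega

/-- Simple wrapper for `Core.card_invol_le`. -/
lemma card_invol_le' {x y : G} {K : Subgroup G} (hs : Cfsg.Agent.Lib.V4TI.Core.Setup x y K)
    (hlin : ∀ χ : IrrCharacter G, (χ : G → ℂ) 1 = 1 → (χ : G → ℂ) x = 1 →
      (χ : G → ℂ) = fun _ => 1) :
    Nat.card {u : G // IsConj x u} ≤ 15 := by
  classical
  letI : Fintype G := Fintype.ofFinite G
  letI : Fintype K := Fintype.ofFinite K
  haveI := Cfsg.Agent.Lib.Char.Ortho.finite_irrCharacter (G := G)
  letI : Fintype (IrrCharacter G) := Fintype.ofFinite _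
  exact Cfsg.Agent.Lib.V4TI.Core.card_invol_le hs hlin

/-- Two involutions of a Sylow Klein four-group are conjugate. -/
lemma conj_of_mem_sylow (P : Sylow 2 G) (hP : (P : Subgroup G) = S₀) (hK : IsKleinFour S₀)
    (hxS : x ∈ S₀) (hx : x * x = 1) (hx1 : x ≠ 1)
    (hidx : ∀ M : Subgroup G, M.Normal → M.index ≠ 2) {y : G} (hyS : y ∈ S₀) (hy1 : y ≠ 1)
    (hyx : y ≠ x) (hy : y * y = 1) : IsConj x y := by
  have hord : orderOf y = 2 := orderOf_eq_prime (by rw [sq]; exact hy) hy1
  have hordx : orderOf x = 2 := orderOf_eq_prime (by rw [sq]; exact hx) hx1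
  set Q := zpowers y with hQ
  have hQP : Q ≤ (P : Subgroup G) := by
    rw [hQ, zpowers_le, hP]
    exact hyS
  have hmemQ : ∀ z, z ∈ Q → z = 1 ∨ z = y := by
    intro z hz
    obtain ⟨i, rfl⟩ := mem_zpowers_iff.mp hz
    rcases Int.even_or_odd' i with ⟨j, rfl | rfl⟩
    · left
      rw [zpow_mul, zpow_two, hy, one_zpow]
    · right
      rw [zpow_add, zpow_mul, zpow_two, hy, one_zpow, one_mul, zpow_one]
  have hQcard : Nat.card Q = 2 := by
    rw [hQ, Nat.card_zpowers, hord]
  have hQi : Q.relIndex (P : Subgroup G) = 2 := by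
    have h1 := Subgroup.card_mul_index (Q.subgroupOf (P : Subgroup G))
    have h2 : Nat.card (Q.subgroupOf (P : Subgroup G)) = Nat.card Q :=
      Nat.card_congr (subgroupOfEquivOfLe hQP).toEquiv
    rw [h2, hQcard, hP, hK.card_four] at h1
    rw [relIndex, hP]
    omega
  have hxQ : x ∉ Q := by
    intro h
    rcases hmemQ x h with h1 | h1
    · exact hx1 h1
    · exact hyx h1.symm
  rcases Cfsg.Agent.S0111.result P Q hQP hQi x hordx (by rw [hP]; exact hxS) hxQ with
    ⟨M, hMn, hMi, -⟩ | ⟨g, hg⟩
  · exact absurd hMi (hidx M hMn)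
  · rcases hmemQ _ hg with h1 | h1
    · exact absurd (conj_eq_one_iff.mp h1) hx1
    · rw [isConj_iff]
      exact ⟨g, h1⟩

/-- **Main theorem.** -/
theorem nonempty_mulEquiv_A5 [IsSimpleGroup G] (x : G) (hx : orderOf x = 2) (S₀ : Subgroup G)
    (hle : S₀ ≤ centralizer ({x} : Set G)) (hK : IsKleinFour S₀)
    (hodd : ¬ 2 ∣ S₀.relIndex (centralizer ({x} : Set G)))
    (hn : (S₀.subgroupOf (centralizer ({x} : Set G))).Normal) :
    Nonempty (G ≃* alternatingGroup (Fin 5)) := by
  classical
  haveI : Fact (Nat.Prime 2) := ⟨Nat.prime_two⟩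
  have hxx : x * x = 1 := by rw [← sq, ← hx, pow_orderOf_eq_one]
  have hx1 : x ≠ 1 := by
    rintro rfl
    simp at hx
  have hSsq : ∀ v ∈ S₀, v * v = 1 := by
    intro v hv
    have h1 : (⟨v, hv⟩ : S₀) ^ 2 = 1 := by
      rw [← hK.exponent_two]
      exact Monoid.pow_exponent_eq_one _
    have h2 := congrArg Subtype.val h1
    simpa [sq] using h2
  have hcardS : Nat.card S₀ = 4 := hK.card_four
  have hxS : x ∈ S₀ := mem_of_two_pow hle hodd hn (g := x) rfl (k := 1) (by
    rw [pow_one, sq, hxx])
  have h4 : 4 ∣ Nat.card G := by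
    rw [← hcardS]
    exact Subgroup.card_subgroup_dvd_card S₀
  have hidx : ∀ M : Subgroup G, M.Normal → M.index ≠ 2 := by
    intro M hM hi
    rcases hM.eq_bot_or_eq_top with rfl | rfl
    · rw [index_bot] at hi
      rw [hi] at h4
      omega
    · rw [index_top] at hi
      omega
  obtain ⟨P, hP⟩ := exists_sylow_eq hx hle hK hodd hn hxS hidx
  -- choose `y`
  letI : Fintype S₀ := Fintype.ofFinite S₀
  obtain ⟨y', hy1', hyx'⟩ : ∃ y' : S₀, y' ≠ 1 ∧ y' ≠ ⟨x, hxS⟩ := by
    by_contra h
    push Not at h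
    have hsub : (Finset.univ : Finset S₀) ⊆ {1, ⟨x, hxS⟩} := by
      intro z _
      by_cases hz : z = 1
      · simp [hz]
      · simp [h z hz]
    have h1 := Finset.card_le_card hsub
    have h2 : (Finset.univ : Finset S₀).card = 4 := by
      rw [Finset.card_univ, ← Nat.card_eq_fintype_card, hcardS]
    have h3 := Finset.card_le_two (a := (1 : S₀)) (b := ⟨x, hxS⟩)
    omega
  obtain ⟨y, hyS⟩ := y'
  have hy1' : (⟨y, hyS⟩ : S₀) ≠ 1 := hy1'
  have hy1 : y ≠ 1 := fun h => hy1' (Subtype.ext h)
  have hyx : y ≠ x := fun h => hyx' (Subtype.ext h)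
  have hyy : y * y = 1 := hSsq y hyS
  have hcomm : ∀ a ∈ S₀, ∀ b ∈ S₀, a * b = b * a := by
    intro a ha b hb
    have := hK.isMulCommutative.is_comm.comm (⟨a, ha⟩ : S₀) ⟨b, hb⟩
    exact congrArg Subtype.val this
  have hxyc : x * y = y * x := hcomm x hxS y hyS
  have henum : ∀ v ∈ S₀, v = 1 ∨ v = x ∨ v = y ∨ v = x * y := by
    intro v hv
    by_cases h1 : v = 1
    · exact Or.inl h1
    by_cases h2 : v = x
    · exact Or.inr (Or.inl h2)
    by_cases h3 : v = y
    · exact Or.inr (Or.inr (Or.inl h3))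
    right; right; right
    have hk := IsKleinFour.eq_finset_univ (G := S₀) (x := ⟨x, hxS⟩) (y := ⟨y, hyS⟩)
      (fun h => hx1 (congrArg Subtype.val h)) hy1' (fun h => hyx (congrArg Subtype.val h).symm)
    have hmem : (⟨v, hv⟩ : S₀) ∈ ({⟨x, hxS⟩ * ⟨y, hyS⟩, ⟨x, hxS⟩, ⟨y, hyS⟩, 1} : Finset S₀) := by
      rw [hk]; exact Finset.mem_univ _
    simp only [Finset.mem_insert, Finset.mem_singleton] at hmem
    rcases hmem with h | h | h | h
    · exact congrArg Subtype.val h
    · exact absurd (congrArg Subtype.val h) h2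
    · exact absurd (congrArg Subtype.val h) h3
    · exact absurd (congrArg Subtype.val h) h1
  -- the complement
  set C := centralizer ({x} : Set G) with hC
  set N := S₀.subgroupOf C with hNdef
  haveI : N.Normal := hn
  have hNcard : Nat.card N = 4 := by
    rw [hNdef, Nat.card_congr (subgroupOfEquivOfLe hle).toEquiv, hcardS]
  have hNodd : Odd N.index := by
    have : ¬ 2 ∣ N.index := hodd
    exact Nat.odd_iff.mpr (by omega)
  have hco : Nat.Coprime (Nat.card N) N.index := by
    rw [hNcard]
    have : Nat.Coprime (2 ^ 2) N.index :=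
      Nat.Coprime.pow_left 2 (Nat.coprime_two_left.mpr hNodd)
    simpa using this
  obtain ⟨H, hH⟩ := Subgroup.exists_right_complement'_of_coprime hco
  set K := H.map C.subtype with hKdef
  have hcardK : Nat.card K = Nat.card H := Subgroup.card_map_of_injective (subtype_injective _)
  have hmul := hH.card_mul_card
  have hmul2 := Subgroup.card_mul_index N
  have hHidx : Nat.card H = N.index := by
    rw [← hmul2] at hmul
    exact Nat.eq_of_mul_eq_mul_left (by rw [hNcard]; norm_num) hmul
  have hKodd : Odd (Nat.card K) := by rw [hcardK, hHidx]; exact hNodd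
  have hKC : ∀ k ∈ K, k * x = x * k := by
    rintro _ ⟨h, -, rfl⟩
    exact mem_centralizer_singleton_iff.mp h.2
  have hKy : ∀ k ∈ K, k * y = y * k := by
    intro k hk
    have hkC : k ∈ C := by
      obtain ⟨h, -, rfl⟩ := hk
      exact h.2
    have hkx := hKC k hk
    have hmem : k * y * k⁻¹ ∈ S₀ := by
      have h1 := hn.conj_mem (⟨y, hle hyS⟩ : C) hyS ⟨k, hkC⟩
      exact h1
    have h2 : k * x * k⁻¹ = x := by rw [hkx]; group
    have hk2 : (k * k) * y = y * (k * k) := by
      rcases henum _ hmem with h | h | h | h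
      · exact absurd (conj_eq_one_iff.mp h) hy1
      · exfalso
        apply hyx
        have h3 : k * y * k⁻¹ = k * x * k⁻¹ := by rw [h, h2]
        exact mul_left_cancel (mul_right_cancel h3)
      · have h3 : k * y = y * k := by
          calc k * y = k * y * k⁻¹ * k := by group
            _ = y * k := by rw [h]
        calc k * k * y = k * (k * y) := by group
          _ = k * (y * k) := by rw [h3]
          _ = (k * y) * k := by group
          _ = (y * k) * k := by rw [h3]
          _ = _ := by group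
      · have h3 : k * y = x * y * k := by
          calc k * y = k * y * k⁻¹ * k := by group
            _ = x * y * k := by rw [h]
        calc k * k * y = k * (k * y) := by group
          _ = k * (x * y * k) := by rw [h3]
          _ = (k * x) * y * k := by group
          _ = (x * k) * y * k := by rw [hkx]
          _ = x * (k * y) * k := by group
          _ = x * (x * y * k) * k := by rw [h3]
          _ = (x * x) * y * k * k := by group
          _ = y * (k * k) := by rw [hxx]; group
    -- `k` is a power of `k * k`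
    obtain ⟨l, hl⟩ := hKodd
    have hkm : k ^ Nat.card K = 1 := by
      have := pow_card_eq_one' (x := (⟨k, hk⟩ : K))
      exact congrArg Subtype.val this
    have hkk : (k * k) ^ (l + 1) = k := by
      have h5 : (k * k) ^ (l + 1) = k ^ (2 * (l + 1)) := by
        rw [pow_mul, sq]
      have h6 : 2 * (l + 1) = Nat.card K + 1 := by omega
      rw [h5, h6, pow_succ, hkm, one_mul]
    have hcm : Commute (k * k) y := hk2
    have := hcm.pow_left (l + 1)
    rw [hkk] at this
    exact this
  have hCdec : ∀ g, g * x = x * g → ∃ k ∈ K, g = k ∨ g = x * k ∨ g = y * k ∨ g = x * y * k := by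
    intro g hg
    have hgC : g ∈ C := mem_centralizer_singleton_iff.mpr hg
    obtain ⟨⟨n', h'⟩, hp⟩ := hH.2 (⟨g, hgC⟩ : C)
    have hg2 : ((n' : C) : G) * ((h' : C) : G) = g := congrArg Subtype.val hp
    refine ⟨((h' : C) : G), ⟨h', h'.2, rfl⟩, ?_⟩
    have hnS : ((n' : C) : G) ∈ S₀ := n'.2
    rcases henum _ hnS with h | h | h | h
    · left; rw [← hg2, h, one_mul]
    · right; left; rw [← hg2, h]
    · right; right; left; rw [← hg2, h]
    · right; right; right; rw [← hg2, h]
  have hconj : ∀ u, u * u = 1 → u ≠ 1 → IsConj x u := by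
    have hconj0 : ∀ v ∈ S₀, v ≠ 1 → IsConj x v := by
      intro v hv hv1
      by_cases hvx : v = x
      · rw [hvx]
      · exact conj_of_mem_sylow P hP hK hxS hxx hx1 hidx hv hv1 hvx (hSsq v hv)
    intro u hu hu1
    have hord : orderOf u = 2 := orderOf_eq_prime (by rw [sq]; exact hu) hu1
    have hpg : IsPGroup 2 (zpowers u) := by
      apply IsPGroup.of_card (n := 1)
      rw [Nat.card_zpowers, hord]; norm_num
    obtain ⟨Q, hQ⟩ := hpg.exists_le_sylow
    have huQ : u ∈ (Q : Subgroup G) := hQ (mem_zpowers u)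
    obtain ⟨g, hg⟩ := MulAction.exists_smul_eq G Q P
    have h1 : MulAut.conj g • (Q : Subgroup G) = (P : Subgroup G) := by
      rw [← hg]; rfl
    have h2 : g * u * g⁻¹ ∈ S₀ := by
      rw [← hP, ← h1]
      exact Subgroup.smul_mem_pointwise_smul u (MulAut.conj g) _ huQ
    have h3 := hconj0 _ h2 (fun h => hu1 (conj_eq_one_iff.mp h))
    exact h3.trans (isConj_comm.mp (isConj_iff.mpr ⟨g, rfl⟩))
  have hs : Cfsg.Agent.Lib.V4TI.Core.Setup x y K :=
    { hx := hxx, hy := hyy, hx1 := hx1, hy1 := hy1, hxy := hxyc, hne := hyx, hKodd := hKodd,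
      hKx := hKC, hKy := hKy, hC := hCdec,
      hcard := by rw [← hmul, hNcard, hcardK], hconj := hconj }
  -- linear characters
  have hlin : ∀ χ : IrrCharacter G, (χ : G → ℂ) 1 = 1 → (χ : G → ℂ) x = 1 →
      (χ : G → ℂ) = fun _ => 1 := by
    intro χ h1 hχx
    obtain ⟨lam, hlam⟩ := Cfsg.Agent.Lib.Char.Linear.exists_hom_of_deg_one
      (Cfsg.Agent.Lib.Char.Basic.isCharacter_of_isIrrCharacter χ.2) h1
    have hker : x ∈ lam.ker := by
      rw [MonoidHom.mem_ker]
      apply Units.ext
      rw [Units.val_one, ← hχx, hlam]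
    have htop : lam.ker = ⊤ := by
      rcases (MonoidHom.normal_ker lam).eq_bot_or_eq_top with h | h
      · rw [h, mem_bot] at hker
        exact absurd hker hx1
      · exact h
    rw [hlam]
    funext g
    have : g ∈ lam.ker := by rw [htop]; exact mem_top g
    rw [MonoidHom.mem_ker] at this
    rw [this, Units.val_one]
  have hNle := card_invol_le' hs hlin
  -- TI property at `x`
  have hconjt : ∀ (t : G) (Q : Sylow 2 G), ((t • Q : Sylow 2 G) : Subgroup G) =
      MulAut.conj t • (Q : Subgroup G) := fun t Q => rfl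
  have hconjm : ∀ (t : G) (Q : Sylow 2 G) (w : G), w ∈ (Q : Subgroup G) →
      t * w * t⁻¹ ∈ ((t • Q : Sylow 2 G) : Subgroup G) := by
    intro t Q w hw
    rw [hconjt]
    exact Subgroup.smul_mem_pointwise_smul w (MulAut.conj t) _ hw
  have hTIx : ∀ R : Sylow 2 G, x ∈ (R : Subgroup G) → R = P := by
    intro R hxR
    obtain ⟨t, ht⟩ := MulAction.exists_smul_eq G R P
    have h2 : t * x * t⁻¹ ∈ S₀ := by
      rw [← hP, ← ht]
      exact hconjm t R x hxR
    have h3 : ∀ w ∈ (R : Subgroup G), w ∈ S₀ := by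
      intro w hw
      have h4 : t * w * t⁻¹ ∈ S₀ := by
        rw [← hP, ← ht]
        exact hconjm t R w hw
      have h5 := hcomm _ h4 _ h2
      have h6 : w * x = x * w := by
        have h7 : t * (w * x) * t⁻¹ = t * (x * w) * t⁻¹ := by
          calc t * (w * x) * t⁻¹ = (t * w * t⁻¹) * (t * x * t⁻¹) := by group
            _ = (t * x * t⁻¹) * (t * w * t⁻¹) := h5
            _ = t * (x * w) * t⁻¹ := by group
        exact mul_left_cancel (mul_right_cancel h7)
      obtain ⟨k, hk⟩ := two_pow_of_mem R.isPGroup' hw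
      exact mem_of_two_pow hle hodd hn h6 hk
    apply Sylow.ext
    have hle' : (R : Subgroup G) ≤ (P : Subgroup G) := by
      rw [hP]
      exact h3
    exact (R.is_maximal' P.isPGroup' hle').symm
  have hTI : ∀ (u : G), IsConj x u → ∀ Q Q' : Sylow 2 G, u ∈ (Q : Subgroup G) →
      u ∈ (Q' : Subgroup G) → Q = Q' := by
    intro u hu Q Q' hQ hQ'
    obtain ⟨s, hs'⟩ := isConj_iff.mp (isConj_comm.mp hu)
    have h1 : s • Q = P := hTIx _ (by rw [← hs']; exact hconjm s Q u hQ)
    have h2 : s • Q' = P := hTIx _ (by rw [← hs']; exact hconjm s Q' u hQ')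
    exact smul_left_cancel s (h1.trans h2.symm)
  -- counting involutions
  choose t ht using fun Q : Sylow 2 G => MulAction.exists_smul_eq G P Q
  have hxyne : x * y ≠ 1 := by
    intro h
    apply hyx
    calc y = x * x * y := by rw [hxx, one_mul]
      _ = x * (x * y) := by group
      _ = x := by rw [h, mul_one]
  let v : Fin 3 → G := ![x, y, x * y]
  have hvS : ∀ i, v i ∈ S₀ := by
    intro i
    fin_cases i
    · exact hxS
    · exact hyS
    · exact S₀.mul_mem hxS hyS
  have hv1 : ∀ i, v i ≠ 1 := by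
    intro i
    fin_cases i
    · exact hx1
    · exact hy1
    · exact hxyne
  have hvinj : Function.Injective v := by
    intro i j hij
    have hxy1 : x ≠ x * y := fun h => hy1 (by simpa using h)
    have hxy2 : y ≠ x * y := fun h => hx1 (by simpa using h)
    fin_cases i <;> fin_cases j <;> first
      | rfl
      | exact absurd hij hyx.symm
      | exact absurd hij hyx
      | exact absurd hij hxy1
      | exact absurd hij hxy1.symm
      | exact absurd hij hxy2
      | exact absurd hij hxy2.symm
  have hfconj : ∀ (Q : Sylow 2 G) (i : Fin 3), IsConj x (t Q * v i * (t Q)⁻¹) := by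
    intro Q i
    apply hconj
    · have := hSsq (v i) (hvS i)
      calc t Q * v i * (t Q)⁻¹ * (t Q * v i * (t Q)⁻¹) = t Q * (v i * v i) * (t Q)⁻¹ := by group
        _ = 1 := by rw [this]; group
    · intro h
      exact hv1 i (conj_eq_one_iff.mp h)
  have hfmem : ∀ (Q : Sylow 2 G) (i : Fin 3), t Q * v i * (t Q)⁻¹ ∈ (Q : Subgroup G) := by
    intro Q i
    have h1 : v i ∈ (P : Subgroup G) := by rw [hP]; exact hvS i
    have h2 := hconjm (t Q) P _ h1
    rwa [ht Q] at h2
  let f : Sylow 2 G × Fin 3 → {u : G // IsConj x u} := fun q =>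
    ⟨t q.1 * v q.2 * (t q.1)⁻¹, hfconj q.1 q.2⟩
  have hfinj : Function.Injective f := by
    rintro ⟨Q, i⟩ ⟨Q', j⟩ hij
    have h1 : t Q * v i * (t Q)⁻¹ = t Q' * v j * (t Q')⁻¹ := congrArg Subtype.val hij
    have hQQ : Q = Q' := hTI _ (hfconj Q i) Q Q' (hfmem Q i) (by rw [h1]; exact hfmem Q' j)
    subst hQQ
    have h2 : v i = v j := mul_left_cancel (mul_right_cancel h1)
    rw [hvinj h2]
  have hle3 : Nat.card (Sylow 2 G) * 3 ≤ Nat.card {u : G // IsConj x u} := by
    have := Nat.card_le_card_of_injective f hfinj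
    rwa [Nat.card_prod, Nat.card_eq_fintype_card (α := Fin 3), Fintype.card_fin] at this
  -- the action on Sylow subgroups
  have hnotnormal : ¬ ∀ g : G, g • P = P := by
    intro hg
    have hnS : S₀.Normal := by
      refine ⟨fun w hw g => ?_⟩
      rw [← hP] at hw ⊢
      have := hconjm g P w hw
      rwa [hg g] at this
    rcases hnS.eq_bot_or_eq_top with h | h
    · rw [h] at hcardS
      simp at hcardS
    · have hcomm2 : ∀ a b : G, a * b = b * a := fun a b =>
        hcomm a (by rw [h]; exact mem_top a) b (by rw [h]; exact mem_top b)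
      have hzn : (zpowers x).Normal := by
        refine ⟨fun w hw g => ?_⟩
        have : g * w * g⁻¹ = w := by rw [hcomm2 g w]; group
        rwa [this]
      have hcardG : Nat.card G = 4 := by
        rw [← hcardS, h, Subgroup.card_top]
      rcases hzn.eq_bot_or_eq_top with h1 | h1
      · rw [zpowers_eq_bot] at h1
        exact hx1 h1
      · have h2 : Nat.card (zpowers x) = 2 := by rw [Nat.card_zpowers, hx]
        rw [h1, Subgroup.card_top, hcardG] at h2
        omega
  have hinjp : Function.Injective (MulAction.toPermHom G (Sylow 2 G)) := by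
    rw [← MonoidHom.ker_eq_bot_iff]
    rcases (MonoidHom.normal_ker (MulAction.toPermHom G (Sylow 2 G))).eq_bot_or_eq_top with h | h
    · exact h
    · exfalso
      apply hnotnormal
      intro g
      have hg : g ∈ (MulAction.toPermHom G (Sylow 2 G)).ker := by rw [h]; exact mem_top g
      rw [MonoidHom.mem_ker] at hg
      have := congrArg (fun p : Equiv.Perm (Sylow 2 G) => p P) hg
      simpa using this
  have hdvd : Nat.card G ∣ (Nat.card (Sylow 2 G)).factorial := by
    rw [← Nat.card_perm]
    exact Subgroup.card_dvd_of_injective _ hinjp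
  have hn2 : Nat.card (Sylow 2 G) ≠ 1 := by
    intro h
    apply hnotnormal
    intro g
    haveI : Subsingleton (Sylow 2 G) := (Nat.card_eq_one_iff_unique.mp h).1
    exact Subsingleton.elim _ _
  have hn2odd : Nat.card (Sylow 2 G) % 2 = 1 := by
    have := card_sylow_modEq_one 2 G
    exact this
  have hn2le : Nat.card (Sylow 2 G) ≤ 5 := by omega
  have hcls : Nat.card {u : G // IsConj x u} * (4 * Nat.card K) = Nat.card G := by
    rw [← hs.hcard, ← Cfsg.Agent.Lib.Char.Complete.card_isConj_mul_card_centralizer x]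
    congr 1
    exact Nat.card_congr (Equiv.subtypeEquivRight fun y => isConj_comm)
  have hcases : Nat.card (Sylow 2 G) = 3 ∨ Nat.card (Sylow 2 G) = 5 := by omega
  have h60 : Nat.card G = 60 := by
    rcases hcases with h3 | h5
    · exfalso
      rw [h3] at hdvd
      have h6 : Nat.card G ∣ 6 := by simpa [Nat.factorial] using hdvd
      have := dvd_trans h4 h6
      omega
    · rw [h5] at hdvd hle3
      have h120 : Nat.card G ∣ 120 := by simpa [Nat.factorial] using hdvd
      have hN15 : Nat.card {u : G // IsConj x u} = 15 := by omega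
      rw [hN15] at hcls
      obtain ⟨l, hl⟩ := hKodd
      have hposG := Nat.card_pos (α := G)
      have hle120 := Nat.le_of_dvd (by norm_num) h120
      have hm : Nat.card K = 1 := by
        have hm0 := Nat.card_pos (α := K)
        have hmle : Nat.card K ≤ 2 := by omega
        omega
      rw [hm] at hcls
      omega
  exact Cfsg.Agent.S0494.result h60

end Setup

end Cfsg.Agent.Lib.V4TI.Reduce
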